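import Cfsg.Agent.H351.IF.F4Base
import Cfsg.Agent.H526.IF.Opp

/-!
# S5719, `F₄(q)`, `q` odd: opposite long root elements (helper318)
-/

set_option autoImplicit false

namespace Cfsg.Agent.H318.IF

open Cfsg.Lie Cfsg.Agent.ChevalleyStructure Cfsg.Agent.ChevalleyStructure.Elts
  Cfsg.Agent.ChevalleyStructure.CoxeterGeomTypes
  Cfsg.Agent.Nodes.RGDChev Cfsg.Agent.KFacts.RgdChevCoord Cfsg.Agent.OddHalf.NI.ModelChev
  Cfsg.Agent.H557.SignTorus Cfsg.Agent.H557.ToralTypes Cfsg.Agent.H557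
  Cfsg.Agent.H934.HeisChev Cfsg.Agent.H934.HeisF4G2 Cfsg.Agent.H351.IF

open Cfsg.Agent.FixBN.FieldRGD (uu vv dd ww)
open CoxeterSystem Cfsg.Agent.ChevalleyStructure.CoxeterGeom Cfsg.Agent.Tits.Roots Cfsg.Agent.Tits.Core
  Cfsg.Agent.Tits.RootComb

universe u

theorem opp25 {K : Type u} [Field K] [Finite K] (h2 : (2 : K) ≠ 0)
    (hFT : ∀ (D : Type u) [Group D] [Finite D], Odd (Nat.card D) → Group.IsSolvable D)
    (S : Subgroup ↥(chevF4.group K)) {x y : ↥(chevF4.group K)} (hx : x ∈ S) (hx' : x ∈ RG K 25) (hx1 : x ≠ 1)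
    (hy : y ∈ S) (hy' : y ∈ RG K 22) (hy1 : y ≠ 1) : zz K 4 ∈ S := by
  obtain ⟨a, rfl⟩ := hx'
  obtain ⟨b, rfl⟩ := hy'
  have ha : a ≠ 0 := by
    rintro rfl
    exact hx1 (xe_zero hF4 25)
  have hb : b ≠ 0 := by
    rintro rfl
    exact hy1 (xe_zero hF4 22)
  have e1 : vec chevF4 4 25 = sr (2 : Fin 4) := vec_simple Nodes.KindF.isType 2
  have e2 : vec chevF4 4 22 = -sr (2 : Fin 4) := by
    rw [← e1]
    exact vec_neg Nodes.KindF.isType (r := 25) (by decide)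
  have h3 : sl Nodes.KindF.isType (K := K) 2 (H526.IF.up a) = xe hF4 25 a := by
    rw [← xc_eq (by norm_num), e1]
    exact sl_uu Nodes.KindF.isType 2 a
  have h4 : sl Nodes.KindF.isType (K := K) 2 (H526.IF.lo b) = xe hF4 22 b := by
    rw [← xc_eq (by norm_num), e2]
    exact sl_vv Nodes.KindF.isType 2 b
  have h5 : zz K 4 = sl Nodes.KindF.isType (K := K) 2 (-1) := by
    have e3 : sg K 4 4 = Pi.mulSingle 2 (-1) := by
      funext k
      fin_cases k <;> simp [sg, Nat.testBit]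
    show th Nodes.KindF.isType (sg K 4 4) = _
    rw [e3, th_mulSingle]
    congr 1
    apply Subtype.ext
    ext i j
    fin_cases i <;> fin_cases j <;> simp [dd]
  rw [h5]
  refine (Subgroup.closure_le S).2 ?_ (H526.IF.opp h2 hFT (sl Nodes.KindF.isType (K := K) 2) ha hb)
  rintro z (rfl | rfl)
  · rw [h3]
    exact hx
  · rw [h4]
    exact hy

end Cfsg.Agent.H318.IF
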